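import Cfsg.Agent.H937.PwO.Plane
import Cfsg.Agent.H124.PwO.Glue

/-!
# S2465, orthogonal groups: `PΩ⁻` over the fields with four and nine elements, Witt index `≥ 4` (helper937)

* `exists_poly` : polynomials of norm one of every degree `≥ 3`;
* `perp_aniso` : the orthogonal complement of a frame of maximal length;
* `prO_aniso` : corner of size `≥ 4`, anisotropic plane, `q = 4, 9`, `N = 6`;
* `all_minus_fn` : `All 6 (PΩ⁻)`.
-/

set_option autoImplicit false
set_option linter.unusedSectionVars false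

namespace Cfsg.Agent.H937.PwO

open QuadraticMap Module Polynomial Cfsg.Agent.LieClassical.OrthCore Cfsg.Agent.LieClassical.OrthTrans
  Cfsg.Agent.LieClassical.OrthFinite Cfsg.Agent.LieClassical.OrthForms Cfsg.Agent.H140.OreO Cfsg.Agent.H126.PwO
open Cfsg.Agent.H78.Pw (Pr All)
open Cfsg.Agent.H434.Corn (MaxTS TS)

/-- **Polynomials of norm one.** -/
theorem exists_poly (F : Type*) [Field F] [Finite F] (hF : Nat.card F = 4 ∨ Nat.card F = 9) {d : ℕ} (hd : 3 ≤ d) :
    ∃ (f : F[X]) (s : ℕ), One d s f ∧ s.Coprime 6 := by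
  rcases Nat.even_or_odd' d with ⟨e, rfl | rfl⟩
  · rcases Nat.lt_or_ge e 3 with h | h
    · have : e = 2 := by omega
      subst this
      exact exists_four F hF
    · exact exists_two' F h (by omega)
  · exact exists_one F hd (odd_two_mul_add_one e)

section frame

variable {F V : Type*} [Field F] [AddCommGroup V] [Module F V] {Q : QuadraticForm F V}

/-- **The complement of a frame of maximal length is anisotropic.** -/
theorem perp_aniso [FiniteDimensional F V] {m : ℕ} {w w' : Fin m → V} (hf : Frame Q w w')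
    (hm : ∀ W, MaxTS Q W → finrank F W = m) (v : perp Q w w') (hv : res Q w w' v = 0) : v = 0 := by
  have hts : TS Q (Submodule.span F (Set.range w)) := by
    intro x hx
    obtain ⟨a, rfl⟩ := (Submodule.mem_span_range_iff_exists_fun F).1 hx
    exact hf.Q_sum_l a _
  have hli : LinearIndependent F w := by
    rw [Fintype.linearIndependent_iff]
    intro a ha i
    have h1 := hf.polar_sum_l a i
    rw [ha, polar_zero_left] at h1
    exact h1.symm
  obtain ⟨W, hW, hWm⟩ := Cfsg.Agent.H434.Corn.exists_maxTS hts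
  have hd : finrank F (Submodule.span F (Set.range w)) = m := by
    rw [finrank_span_eq_card hli, Fintype.card_fin]
  have hWe : Submodule.span F (Set.range w) = W :=
    Submodule.eq_of_le_of_finrank_eq hW (by rw [hd, hm W hWm])
  have hvW : (v : V) ∈ W := by
    refine hWm.max _ hv fun x hx => ?_
    rw [← hWe] at hx
    obtain ⟨a, rfl⟩ := (Submodule.mem_span_range_iff_exists_fun F).1 hx
    exact Frame.polar_perp_l a v.2
  rw [← hWe] at hvW
  obtain ⟨a, ha⟩ := (Submodule.mem_span_range_iff_exists_fun F).1 hvW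
  apply Subtype.ext
  have h0 : a = 0 := by
    funext i
    have h1 := hf.polar_sum_l a i
    rw [ha, polar_comm] at h1
    rw [← h1]
    exact (v.2 i).2
  rw [← ha, h0]
  simp

/-- **Corner of size `≥ 4`, anisotropic plane, `q = 4, 9`.** -/
theorem prO_aniso [Finite F] [FiniteDimensional F V] (hF : Nat.card F = 4 ∨ Nat.card F = 9) {m : ℕ} (hm4 : 4 ≤ m)
    (hQ : Nondeg Q) (hV : finrank F V = 2 * m + 2) (hm : ∀ W, MaxTS Q W → finrank F W = m)
    {g : V ≃ₗ[F] V} (hg : g ∈ O Q) (hB : BaseCorner m Q g) : PrO 6 Q g := by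
  obtain ⟨w, w', hf, hS, hdet, hA⟩ := hB
  obtain ⟨k, rfl⟩ : ∃ k, m = k + 2 := ⟨m - 2, by omega⟩
  have hA' : corner Q g w w' = 1 ∨ ∀ c : F, corner Q g w w' ≠ c • (1 : Matrix (Fin (k + 2)) (Fin (k + 2)) F) :=
    hA.imp id And.left
  obtain ⟨p, s, hp, hs⟩ := exists_poly F hF (d := k + 2) (by omega)
  obtain ⟨f, t, hfo, ht⟩ := exists_poly F hF (d := k + 1) (by omega)
  have hd2 : finrank F (perp Q w w') = 2 := by
    have := hf.finrank_perp
    omega
  obtain ⟨x, hx, hxv⟩ := exists_fv hd2 (perp_aniso hf hm) (by rcases hF with h | h <;> rw [h] <;> norm_num)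
    (by rcases hF with h | h <;> rw [h] <;> norm_num)
  have h5 : (5 : F) ≠ 0 := by
    intro h
    have h1 : ((Nat.card F : ℕ) : F) = 0 := by
      have := Fintype.ofFinite F
      rw [Nat.card_eq_fintype_card]
      exact Nat.cast_card_eq_zero F
    rcases hF with h2 | h2 <;> rw [h2] at h1
    · push_cast at h1
      apply one_ne_zero (α := F)
      linear_combination h - h1
    · push_cast at h1
      apply one_ne_zero (α := F)
      linear_combination 2 * h - h1
  have hx5 := hxv.pow
  obtain ⟨c1, c2⟩ := coprime_reverse_five hp.irr (by rw [hp.deg]; omega) hp.five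
  obtain ⟨c3, c4⟩ := coprime_reverse_five hfo.irr (by rw [hfo.deg]; omega) hfo.five
  have h56 : Nat.Coprime 5 6 := by norm_num
  have hrev : ((X - C 1) * f : F[X]).reverse = (-(X - 1)) * f.reverse := by
    rw [reverse_mul_of_domain, reverse_lin, C_1, one_mul, neg_sub]
  refine prO_pol (by omega) hQ hf hg hS hdet hA' hp.monic hp.deg hp.norm hfo.monic hfo.deg
    (by rw [mul_one]; exact hfo.norm) hx (c := 1) ?_ ?_ (j := 5) (by decide) hx5
    (s := 5 * s) (t := 5 * t) (Nat.Coprime.mul_left h56 hs) (Nat.Coprime.mul_left h56 ht) ?_ ?_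
    (by rw [pow_mul, hx5, one_pow]) (by rw [pow_mul, hx5, one_pow])
  · exact copP_of_cop (hxv.un c1) (hxv.un c2) hp.cop
  · rw [C_1]
    have hinv := hxv.inv
    refine copP_of_fix (hfo.eval (by omega) 1) hfo.cop (un_mul (hinv.un_one h5) (hinv.un c3)) ?_
    rw [← C_1, hrev]
    refine un_mul ?_ (hinv.un c4)
    rw [Un, map_neg]
    exact (hinv.un_one h5).neg
  · exact hp.dvd.trans (by rw [mul_comm]; exact pow_one_sub_dvd_pow_mul_sub_one _ _ _)
  · exact (hfo.dvd' (by omega)).trans (by rw [mul_comm]; exact pow_one_sub_dvd_pow_mul_sub_one _ _ _)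

end frame

/-- **`PΩ⁻` over the fields with four and nine elements, Witt index `≥ 4`.** -/
theorem all_minus_fn {F : Type*} [Field F] [Finite F] (hF : Nat.card F = 4 ∨ Nat.card F = 9) {m : ℕ} (hm : 4 ≤ m)
    {a b : F} (hab : ∀ z₁ z₂ : F, z₁ ^ 2 + a * z₁ * z₂ + b * z₂ ^ 2 = 0 → z₁ = 0 ∧ z₂ = 0) :
    All 6 (Cfsg.POmega F (Cfsg.quadFormMinus m F a b)) :=
  H124.PwO.all_minus' (by omega) hab fun _ hg _ hB =>
    prO_aniso hF hm (nondeg_minusForm m F a b hab) H124.PwO.finrank_minus
      (fun _ hW => H124.PwO.maxTS_minus hab hW) (Subgroup.commutator_le_self _ hg) hB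

end Cfsg.Agent.H937.PwO
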