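import Cfsg.Agent.H126.PwO.Gen
import Mathlib.Algebra.QuadraticAlgebra.Basic

/-!
# S2465, orthogonal groups: rotations of an anisotropic plane (helper937)

* `aniso_model` : an anisotropic plane is a multiple of the norm form of a quadratic extension;
* `exists_prime` : a prime `l` dividing `q + 1` but not `q - 1`: an isometry `x` with `x ^ l = 1` such that `x - 1` is
  invertible, given as the multiplication by an element of the field;
* `exists_fv` : `q = 4, 9` (or `5 ∣ q + 1`): an isometry `x` with `Fv x`.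
-/

set_option autoImplicit false
set_option linter.unusedSectionVars false

namespace Cfsg.Agent.H937.PwO

open QuadraticMap Module Cfsg.Agent.LieClassical.OrthCore Cfsg.Agent.LieClassical.OrthTrans
  Cfsg.Agent.LieClassical.OrthFinite Cfsg.Agent.H140.OreO Cfsg.Agent.H126.PwO

universe u v

variable {F : Type u} {P : Type v} [Field F] [AddCommGroup P] [Module F P] {Q : QuadraticForm F P}

/-- **An anisotropic plane is a multiple of a norm form.** -/
theorem aniso_model (h2 : finrank F P = 2) (han : ∀ v, Q v = 0 → v = 0) :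
    ∃ (c d k : F) (e : QuadraticAlgebra F c d ≃ₗ[F] P), k ≠ 0 ∧ (∀ r : F, r ^ 2 ≠ c + d * r) ∧
      ∀ z, Q (e z) = k * QuadraticAlgebra.norm z := by
  have hfin : FiniteDimensional F P := FiniteDimensional.of_finrank_pos (by rw [h2]; norm_num)
  obtain ⟨b⟩ : Nonempty (Basis (Fin 2) F P) := ⟨finBasisOfFinrankEq F P h2⟩
  have hlin : ∀ s t : F, s • b 0 + t • b 1 = 0 → s = 0 ∧ t = 0 := by
    intro s t h
    have h1 := Fintype.linearIndependent_iff.1 b.linearIndependent ![s, t] (by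
      rw [Fin.sum_univ_two]; exact h)
    exact ⟨h1 0, h1 1⟩
  obtain ⟨k, hk⟩ : ∃ k, k = Q (b 0) := ⟨_, rfl⟩
  have hk0 : k ≠ 0 := by
    intro h0
    exact b.ne_zero 0 (han _ (by rw [← hk, h0]))
  obtain ⟨d, hd⟩ : ∃ d, polar Q (b 0) (b 1) = k * d := ⟨polar Q (b 0) (b 1) / k, by field_simp⟩
  obtain ⟨c, hc⟩ : ∃ c, Q (b 1) = - (k * c) := ⟨-Q (b 1) / k, by field_simp⟩
  let e : QuadraticAlgebra F c d →ₗ[F] P :=
    { toFun := fun z => z.re • b 0 + z.im • b 1
      map_add' := fun v w => by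
        simp only [QuadraticAlgebra.re_add, QuadraticAlgebra.im_add]
        module
      map_smul' := fun a v => by
        simp only [QuadraticAlgebra.re_smul, QuadraticAlgebra.im_smul, smul_eq_mul, RingHom.id_apply]
        module }
  have he : ∀ z, e z = z.re • b 0 + z.im • b 1 := fun z => rfl
  have hinj : Function.Injective e := by
    rw [← LinearMap.ker_eq_bot, LinearMap.ker_eq_bot']
    intro z hz
    rw [he] at hz
    obtain ⟨h3, h4⟩ := hlin _ _ hz
    exact QuadraticAlgebra.ext h3 h4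
  have hfr : finrank F (QuadraticAlgebra F c d) = finrank F P := by
    rw [h2, QuadraticAlgebra.finrank_eq_two]
  have hQe : ∀ z, Q (e z) = k * QuadraticAlgebra.norm z := by
    intro z
    rw [he, Q_add]
    simp only [QuadraticMap.map_smul, polar_smul_left, polar_smul_right, smul_eq_mul]
    rw [hd, hc, ← hk, QuadraticAlgebra.norm_def]
    ring
  refine ⟨c, d, k, LinearMap.linearEquivOfInjective e hinj hfr, hk0, ?_, hQe⟩
  intro t ht
  have h1 : Q (t • b 0 + (-1 : F) • b 1) = 0 := by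
    rw [Q_add, QuadraticMap.map_smul, QuadraticMap.map_smul, polar_smul_left, polar_smul_right, ← hk, hd, hc]
    simp only [smul_eq_mul]
    linear_combination k * ht
  have h3 := (hlin _ _ (han _ h1)).2
  exact one_ne_zero (neg_eq_zero.1 h3)

/-- **Rotations of prime order of an anisotropic plane.** -/
theorem exists_rot [Finite F] (h2 : finrank F P = 2) (han : ∀ v, Q v = 0 → v = 0) {l : ℕ} (hl : l.Prime)
    (hl1 : l ∣ Nat.card F ^ 2 - 1) (hl2 : ¬ l ∣ Nat.card F - 1) :
    ∃ x ∈ O Q, ∃ (K : Type u) (_ : Field K) (_ : Algebra F K) (e : K ≃ₗ[F] P) (ζ : K), ζ ^ l = 1 ∧ ζ ≠ 1 ∧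
      ∀ z, x (e z) = e (ζ * z) := by
  obtain ⟨c, d, k, e, hk, hcd, hQ⟩ := aniso_model h2 han
  have : Fact (∀ r : F, r ^ 2 ≠ c + d * r) := ⟨hcd⟩
  have : Fact l.Prime := ⟨hl⟩
  have : Finite (QuadraticAlgebra F c d) := Finite.of_equiv _ (QuadraticAlgebra.equivProd c d).symm
  have hcard : Nat.card (QuadraticAlgebra F c d)ˣ = Nat.card F ^ 2 - 1 := by
    rw [Nat.card_units, Nat.card_congr (QuadraticAlgebra.equivProd c d), Nat.card_prod, pow_two]
  obtain ⟨u, hu⟩ := exists_prime_orderOf_dvd_card' (G := (QuadraticAlgebra F c d)ˣ) l (by rw [hcard]; exact hl1)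
  obtain ⟨ζ, hζ⟩ : ∃ ζ : QuadraticAlgebra F c d, ζ = u := ⟨_, rfl⟩
  have hζl : ζ ^ l = 1 := by
    rw [hζ, ← Units.val_pow_eq_pow_val, ← hu, pow_orderOf_eq_one, Units.val_one]
  have hζ1 : ζ ≠ 1 := by
    intro h
    have h1 : u = 1 := Units.ext (by rw [← hζ, h, Units.val_one])
    rw [h1, orderOf_one] at hu
    exact hl.one_lt.ne hu
  have hζ0 : ζ ≠ 0 := by rw [hζ]; exact u.ne_zero
  have hN : QuadraticAlgebra.norm ζ = 1 := by
    have h1 : QuadraticAlgebra.norm ζ ^ l = 1 := by rw [← map_pow, hζl, map_one]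
    have hn0 : QuadraticAlgebra.norm ζ ≠ 0 := by
      intro h
      rw [h, zero_pow hl.ne_zero] at h1
      exact zero_ne_one h1
    have h3 : QuadraticAlgebra.norm ζ ^ (Nat.card F - 1) = 1 := by
      let _ := Fintype.ofFinite F
      rw [Nat.card_eq_fintype_card]
      exact FiniteField.pow_card_sub_one_eq_one _ hn0
    have h4 : Nat.Coprime l (Nat.card F - 1) := (Nat.Prime.coprime_iff_not_dvd hl).2 hl2
    have h5 := (orderOf_dvd_of_pow_eq_one h1)
    have h6 := (orderOf_dvd_of_pow_eq_one h3)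
    have h7 : orderOf (QuadraticAlgebra.norm ζ) ∣ 1 := by
      rw [← h4]; exact Nat.dvd_gcd h5 h6
    exact orderOf_eq_one_iff.1 (Nat.dvd_one.1 h7)
  let x : P ≃ₗ[F] P := e.symm.trans ((LinearEquiv.smulOfNeZero (QuadraticAlgebra F c d)
    (QuadraticAlgebra F c d) ζ hζ0).restrictScalars F |>.trans e)
  have hx : ∀ z, x (e z) = e (ζ * z) := by
    intro z
    change e (ζ • e.symm (e z)) = _
    rw [LinearEquiv.symm_apply_apply, smul_eq_mul]
  refine ⟨x, ?_, QuadraticAlgebra F c d, inferInstance, inferInstance, e, ζ, hζl, hζ1, hx⟩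
  intro v
  obtain ⟨z, rfl⟩ := e.surjective v
  show Q (x (e z)) = Q (e z)
  rw [hx, hQ, hQ, map_mul, hN, one_mul]

/-- **A rotation of order five.** -/
theorem exists_fv [Finite F] (h2 : finrank F P = 2) (han : ∀ v, Q v = 0 → v = 0)
    (hl1 : 5 ∣ Nat.card F ^ 2 - 1) (hl2 : ¬ 5 ∣ Nat.card F - 1) : ∃ x ∈ O Q, Fv x := by
  obtain ⟨x, hx, K, _, _, e, ζ, hζ, hζ1, he⟩ := exists_rot h2 han (l := 5) (by norm_num) hl1 hl2
  refine ⟨x, hx, ?_⟩
  have h0 : ζ ^ 4 + ζ ^ 3 + ζ ^ 2 + ζ + 1 = 0 := by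
    have h3 : (ζ - 1) * (ζ ^ 4 + ζ ^ 3 + ζ ^ 2 + ζ + 1) = 0 := by linear_combination hζ
    exact (mul_eq_zero.1 h3).resolve_left (sub_ne_zero.2 hζ1)
  intro v
  obtain ⟨z, rfl⟩ := e.surjective v
  rw [he, he, he, he, ← map_add, ← map_add, ← map_add, ← map_add, ← map_zero e]
  congr 1
  linear_combination z * h0

end Cfsg.Agent.H937.PwO
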